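import Mathlib
import Cfsg.Agent.Lib.Basic.KleinS4

/-!
# The action of `Aut(Q₈)` on the three cyclic subgroups of order four
-/

set_option autoImplicit false

namespace Cfsg.Agent.Lib.Basic.Q8Act

open Equiv QuaternionGroup

/-- The quaternion group of order `8`. -/
abbrev Q8 := QuaternionGroup 2

/-- The central involution. -/
def zz : Q8 := a 2

/-- Labels of the three classes modulo the centre. -/
def cls : Q8 → Fin 3
  | a _ => 0
  | xa i => if i = 0 ∨ i = 2 then 1 else 2

/-- A representative of a class. -/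
def rep : Fin 3 → Q8
  | 0 => a 1
  | 1 => xa 0
  | 2 => xa 1

lemma q_sq : ∀ u : Q8, u * u = 1 → u = 1 ∨ u = zz := by decide
lemma q_sq' : ∀ u : Q8, u ≠ 1 → u ≠ zz → u * u = zz := by decide
lemma q_center : ∀ x : Q8, (∀ u, x * u = u * x) → x = 1 ∨ x = zz := by decide
lemma zz_mul_zz : zz * zz = 1 := by decide
lemma zz_ne_one : zz ≠ 1 := by decide
lemma zz_comm : ∀ u : Q8, u * zz = zz * u := by decide
lemma cls_mul_z : ∀ u : Q8, cls (u * zz) = cls u := by decide
lemma rep_cls : ∀ u : Q8, u ≠ 1 → u ≠ zz → u = rep (cls u) ∨ u = rep (cls u) * zz := by decide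
lemma cls_rep : ∀ i, cls (rep i) = i := by decide
lemma rep_ne : ∀ i, rep i ≠ 1 ∧ rep i ≠ zz := by decide
lemma cls_eq : ∀ u v : Q8, u ≠ 1 → u ≠ zz → v ≠ 1 → v ≠ zz → cls u = cls v → u = v ∨ u = v * zz := by
  decide
lemma mul_cls : ∀ x y w : Q8, x ≠ 1 → x ≠ zz → y ≠ 1 → y ≠ zz → w ≠ 1 → w ≠ zz →
    cls x ≠ cls y → cls y ≠ cls w → cls x ≠ cls w → x * y = w ∨ x * y = w * zz := by decide

lemma perm_two : ∀ w : Perm (Fin 3), (∀ i, w i ≠ i) → ∀ i, w (w i) ≠ i := by decide

section Aut

variable (σ τ : Q8 ≃* Q8)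

lemma map_zz : σ zz = zz := by
  have h1 : σ zz * σ zz = 1 := by rw [← map_mul, zz_mul_zz, map_one]
  rcases q_sq _ h1 with h | h
  · exfalso
    have : zz = 1 := σ.injective (by rw [h, map_one])
    exact zz_ne_one this
  · exact h

lemma map_ne {u : Q8} (h1 : u ≠ 1) (h2 : u ≠ zz) : σ u ≠ 1 ∧ σ u ≠ zz := by
  constructor
  · intro h
    exact h1 (σ.injective (by rw [h, map_one]))
  · intro h
    exact h2 (σ.injective (by rw [h, map_zz]))

/-- The function on classes. -/
def fn (i : Fin 3) : Fin 3 := cls (σ (rep i))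

lemma cls_map {u : Q8} (h1 : u ≠ 1) (h2 : u ≠ zz) : cls (σ u) = fn σ (cls u) := by
  rcases rep_cls u h1 h2 with h | h
  · conv_lhs => rw [h]
    rfl
  · conv_lhs => rw [h, map_mul, map_zz, cls_mul_z]
    rfl

lemma fn_mul (i : Fin 3) : fn (σ.trans τ) i = fn τ (fn σ i) := by
  have := cls_map τ (map_ne σ (rep_ne i).1 (rep_ne i).2).1 (map_ne σ (rep_ne i).1 (rep_ne i).2).2
  exact this

lemma fn_refl (i : Fin 3) : fn (MulEquiv.refl Q8) i = i := cls_rep i

/-- The action on the three classes. -/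
def aut3 : MulAut Q8 →* Perm (Fin 3) where
  toFun σ :=
    { toFun := fn σ
      invFun := fn σ.symm
      left_inv := fun i => by
        rw [← fn_mul]
        simp [fn_refl]
      right_inv := fun i => by
        rw [← fn_mul]
        simp [fn_refl] }
  map_one' := by
    ext i
    exact congrArg _ (fn_refl i)
  map_mul' σ τ := by
    ext i
    exact congrArg _ (fn_mul τ σ i)

lemma aut3_apply {u : Q8} (h1 : u ≠ 1) (h2 : u ≠ zz) : aut3 σ (cls u) = cls (σ u) :=
  (cls_map σ h1 h2).symm

lemma aut3_eq_one_iff : aut3 σ = 1 ↔ ∀ u, σ u = u ∨ σ u = u * zz := by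
  constructor
  · intro h u
    by_cases h1 : u = 1
    · subst h1
      left
      exact map_one σ
    by_cases h2 : u = zz
    · subst h2
      left
      exact map_zz σ
    have h3 := aut3_apply σ h1 h2
    rw [h] at h3
    obtain ⟨h4, h5⟩ := map_ne σ h1 h2
    rcases cls_eq (σ u) u h4 h5 h1 h2 h3.symm with h6 | h6
    · exact Or.inl h6
    · exact Or.inr h6
  · intro h
    ext i
    have h1 : aut3 σ i = cls (σ (rep i)) := rfl
    have h2 : cls (σ (rep i)) = i := by
      rcases h (rep i) with h3 | h3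
      · rw [h3, cls_rep]
      · rw [h3, cls_mul_z, cls_rep]
    rw [h1, h2]
    rfl

lemma aut3_fix {u : Q8} (h1 : u ≠ 1) (h2 : u ≠ zz) (h : aut3 σ (cls u) = cls u) :
    σ u = u ∨ σ u = u * zz := by
  rw [aut3_apply σ h1 h2] at h
  obtain ⟨h4, h5⟩ := map_ne σ h1 h2
  exact cls_eq (σ u) u h4 h5 h1 h2 h

/-- An automorphism of odd order acting trivially on the classes is trivial. -/
lemma odd_trivial (hσ : aut3 σ = 1) {N : ℕ} (hN : Odd N) (hσN : (σ : MulAut Q8) ^ N = 1) : σ = 1 := by
  have h1 := (aut3_eq_one_iff σ).mp hσ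
  have h2 : (σ : MulAut Q8) * σ = 1 := by
    ext u
    change σ (σ u) = u
    rcases h1 u with h | h
    · rw [h, h]
    · rw [h, map_mul, map_zz, h, mul_assoc, zz_mul_zz, mul_one]
  obtain ⟨k, rfl⟩ := hN
  rw [pow_succ, pow_mul, pow_two, h2, one_pow, one_mul] at hσN
  exact hσN

/-- An element acting trivially on the classes which commutes with an automorphism moving all the
classes is trivial. -/
lemma commute_trivial (y α : MulAut Q8) (hc : y * α = α * y) (hy : aut3 y = 1)
    (hα : ∀ i, aut3 α i ≠ i) : y = 1 := by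
  have hs := (aut3_eq_one_iff y).mp hy
  have hca : ∀ u, y (α u) = α (y u) := fun u => by
    have := congrArg (fun φ : MulAut Q8 => φ u) hc
    exact this
  have key : ∀ u : Q8, u ≠ 1 → u ≠ zz → y u = u := by
    intro u h1 h2
    rcases hs u with h | h
    · exact h
    exfalso
    obtain ⟨h3, h4⟩ := map_ne α h1 h2
    obtain ⟨h5, h6⟩ := map_ne α h3 h4
    have e1 : aut3 α (cls u) = cls (α u) := aut3_apply α h1 h2
    have e2 : aut3 α (cls (α u)) = cls (α (α u)) := aut3_apply α h3 h4
    have n1 : cls u ≠ cls (α u) := by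
      rw [← e1]
      exact (hα _).symm
    have n2 : cls (α u) ≠ cls (α (α u)) := by
      rw [← e2]
      exact (hα _).symm
    have n3 : cls u ≠ cls (α (α u)) := by
      rw [← e2, ← e1]
      exact (perm_two _ hα _).symm
    have y1 : y (α u) = α u * zz := by
      rw [hca, h, map_mul, map_zz α]
    have y2 : y (α (α u)) = α (α u) * zz := by
      rw [hca, y1, map_mul, map_zz α]
    have y3 : y (u * α u) = u * α u := by
      rw [map_mul, h, y1]
      calc u * zz * (α u * zz) = u * (zz * α u) * zz := by simp only [mul_assoc]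
        _ = u * (α u * zz) * zz := by rw [← zz_comm (α u)]
        _ = u * α u * (zz * zz) := by simp only [mul_assoc]
        _ = u * α u := by rw [zz_mul_zz, mul_one]
    have hne : ∀ v : Q8, v ≠ v * zz := fun v h => zz_ne_one (by simpa using h)
    rcases mul_cls u (α u) (α (α u)) h1 h2 h3 h4 h5 h6 n1 n2 n3 with h7 | h7
    · rw [h7, y2] at y3
      exact hne _ y3.symm
    · rw [h7, map_mul, map_zz y, y2, mul_assoc, zz_mul_zz, mul_one] at y3
      exact hne _ y3
  ext u
  change y u = u
  by_cases h1 : u = 1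
  · subst h1
    exact map_one y
  by_cases h2 : u = zz
  · subst h2
    exact map_zz y
  exact key u h1 h2

end Aut

end Cfsg.Agent.Lib.Basic.Q8Act
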