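import Mathlib

/-!
# Automorphisms of odd order of generalized quaternion groups of order at least 16 are trivial
-/

set_option autoImplicit false

namespace Cfsg.Agent.Lib.Basic.QuatAut

open QuaternionGroup

lemma a_pow {m : ℕ} (k : ZMod (2 * m)) (l : ℕ) : (a k : QuaternionGroup m) ^ l = a ((l : ZMod (2 * m)) * k) := by
  induction l with
  | zero => simp [← QuaternionGroup.one_def]
  | succ l ih =>
    rw [pow_succ, ih, a_mul_a]
    congr 1
    push_cast
    ring

theorem trivial_aux {n : ℕ} (m : ℕ) [NeZero m] (hm : m = 2 ^ n) (hm4 : 4 ≤ m)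
    (σ : QuaternionGroup m ≃* QuaternionGroup m)
    {N : ℕ} (hN : Odd N) (hσ : ∀ x, (⇑σ)^[N] x = x) : ∀ x, σ x = x := by
  have hord : orderOf (a 1 : QuaternionGroup m) = 2 * m := orderOf_a_one
  -- σ preserves the cyclic part
  obtain ⟨k, hk⟩ : ∃ k : ZMod (2 * m), σ (a 1) = a k := by
    have h1 : orderOf (σ (a 1)) = 2 * m := by
      rw [MulEquiv.orderOf_eq, hord]
    rcases h2 : σ (a 1) with k | k
    · exact ⟨k, rfl⟩
    · rw [h2, orderOf_xa] at h1
      omega
  have hσa : ∀ i : ZMod (2 * m), σ (a i) = a (k * i) := by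
    intro i
    have h1 : (a i : QuaternionGroup m) = (a 1) ^ (i.val) := by
      rw [a_pow]
      congr 1
      simp
    rw [h1, map_pow, hk, a_pow]
    congr 1
    simp [mul_comm]
  have hiter : ∀ j : ℕ, (⇑σ)^[j] (a 1) = a (k ^ j) := by
    intro j
    induction j with
    | zero => simp
    | succ j ih =>
      rw [Function.iterate_succ_apply', ih, hσa, pow_succ, mul_comm]
  have hkN : k ^ N = 1 := by
    have := hσ (a 1)
    rw [hiter] at this
    exact a.inj this
  have hk1 : k = 1 := by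
    have hN0 : N ≠ 0 := by
      rintro rfl
      exact absurd hN (by decide)
    let u : (ZMod (2 * m))ˣ := Units.ofPowEqOne k N hkN hN0
    have hu : u ^ N = 1 := Units.ext (by simpa [u] using hkN)
    have h1 : orderOf u ∣ N := orderOf_dvd_of_pow_eq_one hu
    have h2 : orderOf u ∣ Nat.card (ZMod (2 * m))ˣ := orderOf_dvd_natCard u
    have h3 : Nat.card (ZMod (2 * m))ˣ = m := by
      haveI : NeZero (2 * m) := ⟨by positivity⟩
      rw [Nat.card_eq_fintype_card, ZMod.card_units_eq_totient]
      have : 2 * m = 2 ^ (n + 1) := by rw [hm, pow_succ]; ring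
      rw [this, Nat.totient_prime_pow_succ Nat.prime_two, hm]
      simp
    rw [h3] at h2
    have h4 : Nat.Coprime N m := by
      rw [hm]
      exact Nat.Coprime.pow_right _ (Nat.coprime_two_right.mpr hN)
    have h5 : orderOf u = 1 := Nat.eq_one_of_dvd_coprimes h4 h1 h2
    have h6 : u = 1 := orderOf_eq_one_iff.mp h5
    have : (u : ZMod (2 * m)) = 1 := by rw [h6]; rfl
    simpa [u] using this
  subst hk1
  have hfa : ∀ i : ZMod (2 * m), σ (a i) = a i := by
    intro i
    rw [hσa, one_mul]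
  obtain ⟨l, hl⟩ : ∃ l : ZMod (2 * m), σ (xa 0) = xa l := by
    rcases h2 : σ (xa 0) with k | k
    · exfalso
      have h3 : σ (xa 0) = σ (a k) := by rw [h2, hfa]
      have h4 := σ.injective h3
      exact absurd h4 (by simp)
    · exact ⟨k, rfl⟩
  have hσx : ∀ i : ZMod (2 * m), σ (xa i) = xa (l + i) := by
    intro i
    have h1 : (xa i : QuaternionGroup m) = xa 0 * a i := by
      rw [xa_mul_a, zero_add]
    rw [h1, map_mul, hl, hfa, xa_mul_a]
  have hiterx : ∀ j : ℕ, (⇑σ)^[j] (xa 0) = xa ((j : ZMod (2 * m)) * l) := by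
    intro j
    induction j with
    | zero => simp
    | succ j ih =>
      rw [Function.iterate_succ_apply', ih, hσx]
      congr 1
      push_cast
      ring
  have hl0 : l = 0 := by
    have h1 := hσ (xa 0)
    rw [hiterx] at h1
    have h2 : (N : ZMod (2 * m)) * l = 0 := xa.inj h1
    have h3 : IsUnit (N : ZMod (2 * m)) := by
      rw [ZMod.isUnit_iff_coprime]
      have : 2 * m = 2 ^ (n + 1) := by rw [hm, pow_succ]; ring
      rw [this]
      exact Nat.Coprime.pow_right _ (Nat.coprime_two_right.mpr hN)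
    exact (IsUnit.mul_right_eq_zero h3).mp h2
  subst hl0
  intro x
  rcases x with i | i
  · exact hfa i
  · rw [hσx, zero_add]

theorem trivial_of_odd {n : ℕ} (hn : 2 ≤ n) (σ : QuaternionGroup (2 ^ n) ≃* QuaternionGroup (2 ^ n))
    {N : ℕ} (hN : Odd N) (hσ : ∀ x, (⇑σ)^[N] x = x) : ∀ x, σ x = x := by
  haveI : NeZero (2 ^ n) := ⟨by positivity⟩
  refine trivial_aux (n := n) (2 ^ n) rfl ?_ σ hN hσ
  calc 4 = 2 ^ 2 := by norm_num
    _ ≤ 2 ^ n := Nat.pow_le_pow_right (by norm_num) hn

end Cfsg.Agent.Lib.Basic.QuatAut
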