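import Mathlib
import Cfsg.Prelude.Def_SubgroupEmbedding
import Cfsg.Agent.Lib.Basic.RealOdd
import Cfsg.Agent.S0199

/-!
# Sidki pairs: conjugation invariance, the Baer-Suzuki input, and the Klein four case
-/

namespace Cfsg.Agent.Lib.Basic.Sidki

open Subgroup Cfsg Cfsg.Agent.Lib.Basic.PCore

variable {G : Type*} [Group G]

/-- An element of odd order that equals its inverse is trivial. -/
lemma eq_one_of_eq_inv {h : G} (hh : Odd (orderOf h)) (e : h = h⁻¹) : h = 1 := by
  have h2 : h ^ 2 = 1 := by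
    rw [pow_two]
    nth_rewrite 1 [e]
    exact inv_mul_cancel h
  have hd : orderOf h ∣ 2 := orderOf_dvd_of_pow_eq_one h2
  have hc : Nat.Coprime (orderOf h) 2 := by
    rw [Nat.coprime_two_right]; exact hh
  have : orderOf h = 1 := Nat.eq_one_of_dvd_coprimes hc (dvd_refl _) hd
  exact orderOf_eq_one_iff.mp this

/-- An element of odd order inverted and centralized by the same element is trivial. -/
lemma eq_one_of_comm_inv {v h : G} (hh : Odd (orderOf h)) (hi : v * h * v⁻¹ = h⁻¹)
    (hc : v * h = h * v) : h = 1 := by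
  apply eq_one_of_eq_inv hh
  rw [← hi, hc]; group

/-- An element of odd order inverted by an element of odd order is trivial. -/
lemma eq_one_of_odd_inverts {γ β : G} (hγ : Odd (orderOf γ)) (hβ : Odd (orderOf β))
    (hi : γ * β * γ⁻¹ = β⁻¹) : β = 1 := by
  have h2 : (γ ^ 2) * β = β * (γ ^ 2) := by
    have h3 : γ * β⁻¹ * γ⁻¹ = β := by
      have : γ * β⁻¹ * γ⁻¹ = (γ * β * γ⁻¹)⁻¹ := by group
      rw [this, hi, inv_inv]
    calc γ ^ 2 * β = (γ * (γ * β * γ⁻¹) * γ⁻¹) * (γ ^ 2) := by simp only [pow_two]; group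
      _ = (γ * β⁻¹ * γ⁻¹) * (γ ^ 2) := by rw [hi]
      _ = β * (γ ^ 2) := by rw [h3]
  have hc2 : Commute (γ ^ 2) β := h2
  obtain ⟨r, hr⟩ := hγ
  have hpow : (γ ^ 2) ^ (r + 1) = γ := by
    rw [← pow_mul]
    have : 2 * (r + 1) = orderOf γ + 1 := by omega
    rw [this, pow_succ, pow_orderOf_eq_one, one_mul]
  have hc : Commute γ β := by
    have := hc2.pow_left (r + 1)
    rwa [hpow] at this
  exact eq_one_of_comm_inv hβ hi hc.eq

lemma inv_zpow_conj {v h : G} (hv : v * h * v⁻¹ = h⁻¹) (k : ℤ) :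
    v * h ^ k * v⁻¹ = (h ^ k)⁻¹ := by
  have : v * h ^ k * v⁻¹ = (MulAut.conj v) (h ^ k) := by simp [MulAut.conj_apply]
  rw [this, map_zpow, MulAut.conj_apply, hv, inv_zpow]

/-- Square roots in an element of odd order. -/
lemma exists_sqrt {h : G} (hh : Odd (orderOf h)) : ∃ g : G, g ^ 2 = h ∧ ∃ k : ℤ, g = h ^ k := by
  obtain ⟨r, hr⟩ := hh
  refine ⟨h ^ (r + 1), ?_, ((r + 1 : ℕ) : ℤ), by rw [zpow_natCast]⟩
  rw [← pow_mul]
  have : (r + 1) * 2 = orderOf h + 1 := by omega
  rw [this, pow_succ, pow_orderOf_eq_one, one_mul]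

/-- Conjugates of Sidki pairs are Sidki pairs. -/
theorem IsSidkiPair.conj {V : Subgroup G} (hS : IsSidkiPair V) (g : G) :
    IsSidkiPair (V.map (MulAut.conj g).toMonoidHom) := by
  intro h v hv hodd hinv
  obtain ⟨v₀, hv₀, rfl⟩ := hv
  simp only [MulEquiv.coe_toMonoidHom, MulAut.conj_apply] at hinv ⊢
  have hodd' : Odd (orderOf (g⁻¹ * h * g)) := by
    have : orderOf (g⁻¹ * h * g) = orderOf h := by
      have := orderOf_injective (MulAut.conj g⁻¹).toMonoidHom
        (MulAut.conj g⁻¹).injective h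
      simpa [MulAut.conj_apply] using this
    rw [this]; exact hodd
  have hinv' : v₀ * (g⁻¹ * h * g) * v₀⁻¹ = (g⁻¹ * h * g)⁻¹ := by
    have h3 : g * v₀ * g⁻¹ * h * (g * v₀ * g⁻¹)⁻¹ = h⁻¹ := hinv
    calc v₀ * (g⁻¹ * h * g) * v₀⁻¹ = g⁻¹ * (g * v₀ * g⁻¹ * h * (g * v₀ * g⁻¹)⁻¹) * g := by group
      _ = g⁻¹ * h⁻¹ * g := by rw [h3]
      _ = (g⁻¹ * h * g)⁻¹ := by group
  obtain ⟨w, hw, hw1, hwc⟩ := hS _ v₀ hv₀ hodd' hinv'
  refine ⟨g * w * g⁻¹, ⟨w, hw, by simp [MulAut.conj_apply]⟩, ?_, ?_⟩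
  · intro e
    apply hw1
    have : w = g⁻¹ * (g * w * g⁻¹) * g := by group
    rw [this, e]; group
  · calc g * w * g⁻¹ * h = g * (w * (g⁻¹ * h * g)) * g⁻¹ := by group
      _ = g * ((g⁻¹ * h * g) * w) * g⁻¹ := by rw [hwc]
      _ = h * (g * w * g⁻¹) := by group

section BS

variable [Finite G]

/-- An involution (or trivial element) outside `O_2(G)` inverts a nontrivial element of odd order. -/
theorem exists_inverted_of_not_mem_pCore {t : G} (ht : t ^ 2 = 1) (hc : t ∉ pCore 2 G) :
    ∃ h : G, h ≠ 1 ∧ Odd (orderOf h) ∧ t * h * t⁻¹ = h⁻¹ := by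
  classical
  by_contra hno
  push Not at hno
  apply hc
  have htt : t * t = 1 := by rw [← pow_two]; exact ht
  have htinv : t⁻¹ = t := by rw [inv_eq_iff_mul_eq_one]; exact htt
  have key : ∀ s : G, s ^ 2 = 1 → ∃ a : ℕ, (t * s) ^ (2 ^ a) = 1 := by
    intro s hs
    have hss : s * s = 1 := by rw [← pow_two]; exact hs
    have hsinv : s⁻¹ = s := by rw [inv_eq_iff_mul_eq_one]; exact hss
    set w := t * s with hwdef
    have hsemi : SemiconjBy t w w⁻¹ := by
      rw [SemiconjBy, hwdef, mul_inv_rev, htinv, hsinv]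
      calc t * (t * s) = (t * t) * s := by group
        _ = s * (t * t) := by rw [htt]; group
        _ = s * t * t := by group
    have hn : orderOf w ≠ 0 := (orderOf_pos w).ne'
    let a := (orderOf w).factorization 2
    have hsplit : 2 ^ a * ordCompl[2] (orderOf w) = orderOf w :=
      Nat.ordProj_mul_ordCompl_eq_self _ 2
    set m := ordCompl[2] (orderOf w) with hm
    have hm_odd : Odd m := by
      rw [← Nat.not_even_iff_odd, even_iff_two_dvd]
      exact Nat.not_dvd_ordCompl Nat.prime_two hn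
    refine ⟨a, ?_⟩
    by_contra hne
    set u := w ^ (2 ^ a) with hu
    have hord : orderOf u = m := by
      have hdvd : m ∣ orderOf w := Dvd.intro_left _ hsplit
      have := orderOf_pow_orderOf_div hn hdvd
      rwa [show orderOf w / m = 2 ^ a from by
        rw [Nat.div_eq_iff_eq_mul_left (Odd.pos hm_odd) hdvd]; exact hsplit.symm] at this
    apply hno u hne (hord ▸ hm_odd)
    have h3 := (hsemi.pow_right (2 ^ a)).eq
    rw [h3, hu, inv_pow, mul_assoc, mul_inv_cancel, mul_one]
  have : Fact (Nat.Prime 2) := ⟨Nat.prime_two⟩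
  have hX : IsPGroup 2 (zpowers t) := by
    intro x
    refine ⟨1, ?_⟩
    obtain ⟨x, k, rfl⟩ := x
    apply Subtype.ext
    simp only [pow_one, Subgroup.coe_pow, OneMemClass.coe_one]
    show (t ^ k) ^ 2 = 1
    rw [← zpow_natCast, ← zpow_mul, mul_comm, zpow_mul, zpow_natCast, ht, one_zpow]
  obtain ⟨N, hN, hNp, hXN⟩ := Cfsg.Agent.S0199.result (zpowers t) hX (by
    intro g
    rw [MonoidHom.map_zpowers]
    have hs : ((MulAut.conj g).toMonoidHom t) ^ 2 = 1 := by
      rw [← map_pow, ht, map_one]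
    obtain ⟨a, ha⟩ := key _ hs
    exact Cfsg.Agent.Lib.Basic.RealOdd.isPGroup_sup_zpowers_of_involutions ht hs ha)
  exact le_pCore hN hNp (hXN (mem_zpowers t))

end BS

/-- In a Klein four-subgroup, two distinct nontrivial elements give all elements. -/
lemma klein_elems {A : Subgroup G} (hA : IsKleinFour ↥A) {u t w : G} (hu : u ∈ A) (ht : t ∈ A)
    (hw : w ∈ A) (hu1 : u ≠ 1) (ht1 : t ≠ 1) (hut : u ≠ t) :
    w = 1 ∨ w = u ∨ w = t ∨ w = u * t := by
  classical
  have : Finite A := IsKleinFour.instFinite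
  haveI : Fintype A := Fintype.ofFinite A
  have hcard : Fintype.card A = 4 := IsKleinFour.card_four'
  set U : A := ⟨u, hu⟩
  set T : A := ⟨t, ht⟩
  have hU1 : U ≠ 1 := fun e => hu1 (congrArg Subtype.val e)
  have hT1 : T ≠ 1 := fun e => ht1 (congrArg Subtype.val e)
  have hUT : U ≠ T := fun e => hut (congrArg Subtype.val e)
  have hUT1 : U * T ≠ 1 := by
    intro e
    apply hUT
    have hT2 : T * T = 1 := IsKleinFour.mul_self T
    calc U = U * (T * T) := by rw [hT2, mul_one]
      _ = (U * T) * T := by group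
      _ = T := by rw [e, one_mul]
  have hUTU : U * T ≠ U := fun e => hT1 (mul_eq_left.mp e)
  have hUTT : U * T ≠ T := fun e => hU1 (mul_eq_right.mp e)
  have hsub : (({1, U, T, U * T} : Finset A)) = Finset.univ := by
    apply Finset.eq_univ_of_card
    rw [hcard]
    rw [Finset.card_insert_of_notMem, Finset.card_insert_of_notMem, Finset.card_insert_of_notMem,
      Finset.card_singleton]
    · simp [hUT, hUTT.symm]
    · simp only [Finset.mem_insert, Finset.mem_singleton, not_or]
      exact ⟨hUT, hUTU.symm⟩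
    · simp only [Finset.mem_insert, Finset.mem_singleton, not_or]
      exact ⟨hU1.symm, hT1.symm, hUT1.symm⟩
  have hmem : (⟨w, hw⟩ : A) ∈ ({1, U, T, U * T} : Finset A) := by rw [hsub]; exact Finset.mem_univ _
  simp only [Finset.mem_insert, Finset.mem_singleton] at hmem
  rcases hmem with h | h | h | h
  · left; exact congrArg Subtype.val h
  · right; left; exact congrArg Subtype.val h
  · right; right; left; exact congrArg Subtype.val h
  · right; right; right; exact congrArg Subtype.val h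

/-- Every nontrivial subgroup of order 4 has a nontrivial element; and in fact two distinct ones. -/
lemma klein_exists_ne {A : Subgroup G} (hA : IsKleinFour ↥A) (t : G) :
    ∃ u ∈ A, u ≠ 1 ∧ u ≠ t := by
  classical
  have : Finite A := IsKleinFour.instFinite
  haveI : Fintype A := Fintype.ofFinite A
  have hcard : Fintype.card A = 4 := IsKleinFour.card_four'
  by_contra hne
  push Not at hne
  have hsub : ∀ x : A, (x : G) = 1 ∨ (x : G) = t := by
    intro x
    by_cases h1 : (x : G) = 1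
    · exact Or.inl h1
    · exact Or.inr (hne x x.2 h1)
  by_cases ht : t ∈ A
  · have : (Finset.univ : Finset A) ⊆ {1, ⟨t, ht⟩} := by
      intro z _
      simp only [Finset.mem_insert, Finset.mem_singleton]
      rcases hsub z with h | h
      · left; exact Subtype.ext h
      · right; exact Subtype.ext h
    have h3 := Finset.card_le_card this
    have h2 : ({1, ⟨t, ht⟩} : Finset A).card ≤ 2 := Finset.card_le_two
    rw [Finset.card_univ] at h3
    omega
  · have : (Finset.univ : Finset A) ⊆ {1} := by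
      intro z _
      simp only [Finset.mem_singleton]
      rcases hsub z with h | h
      · exact Subtype.ext h
      · exact absurd (h ▸ z.2) ht
    have h3 := Finset.card_le_card this
    rw [Finset.card_univ, Finset.card_singleton] at h3
    omega

lemma klein_mul_self {A : Subgroup G} (hA : IsKleinFour ↥A) {u : G} (hu : u ∈ A) : u * u = 1 :=
  congrArg Subtype.val (IsKleinFour.mul_self (⟨u, hu⟩ : A))

lemma klein_comm {A : Subgroup G} (hA : IsKleinFour ↥A) {u t : G} (hu : u ∈ A) (ht : t ∈ A) :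
    u * t = t * u := by
  have := IsKleinFour.isMulCommutative (G := A)
  exact congrArg Subtype.val (mul_comm' (⟨u, hu⟩ : A) ⟨t, ht⟩)

/-- `h` is an eigen-element of type `u` for `A`. -/
def Eig (A : Subgroup G) (u h : G) : Prop :=
  h ≠ 1 ∧ Odd (orderOf h) ∧ u * h = h * u ∧
    ∀ v ∈ A, v ≠ 1 → v ≠ u → v * h * v⁻¹ = h⁻¹

section Klein

variable [Finite G]

lemma exists_eig {A : Subgroup G} (hA : IsKleinFour ↥A) (hS : IsSidkiPair A) {t : G} (ht : t ∈ A)
    (hout : t ∉ pCore 2 G) : ∃ u ∈ A, u ≠ 1 ∧ u ≠ t ∧ ∃ h, Eig A u h := by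
  have htt : t ^ 2 = 1 := by rw [pow_two]; exact klein_mul_self hA ht
  have ht1 : t ≠ 1 := fun e => hout (e ▸ one_mem _)
  obtain ⟨h, hh1, hodd, hinv⟩ := exists_inverted_of_not_mem_pCore htt hout
  obtain ⟨u, hu, hu1, huc⟩ := hS h t ht hodd hinv
  have hut : u ≠ t := by
    rintro rfl
    exact hh1 (eq_one_of_comm_inv hodd hinv huc)
  refine ⟨u, hu, hu1, hut, h, hh1, hodd, huc, ?_⟩
  intro v hv hv1 hvu
  rcases klein_elems hA hu ht hv hu1 ht1 hut with h1 | h1 | h1 | h1
  · exact absurd h1 hv1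
  · exact absurd h1 hvu
  · rw [h1]; exact hinv
  · rw [h1]
    calc u * t * h * (u * t)⁻¹ = u * (t * h * t⁻¹) * u⁻¹ := by group
      _ = u * h⁻¹ * u⁻¹ := by rw [hinv]
      _ = (u * h * u⁻¹)⁻¹ := by group
      _ = (h * u * u⁻¹)⁻¹ := by rw [huc]
      _ = h⁻¹ := by group

/-- **Sidki's theorem for Klein four-groups.** -/
theorem klein_meets_pCore {A : Subgroup G} (hA : IsKleinFour ↥A) (hS : IsSidkiPair A) :
    A ⊓ pCore 2 G ≠ ⊥ := by
  intro hbot
  have hout : ∀ t ∈ A, t ≠ 1 → t ∉ pCore 2 G := by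
    intro t ht ht1 hc
    have : t ∈ A ⊓ pCore 2 G := ⟨ht, hc⟩
    rw [hbot] at this
    exact ht1 (Subgroup.mem_bot.mp this)
  obtain ⟨t₀, ht₀, ht₀1, -⟩ := klein_exists_ne hA 1
  obtain ⟨a, ha, ha1, -, γ, hγ⟩ := exists_eig hA hS ht₀ (hout _ ht₀ ht₀1)
  obtain ⟨b, hb, hb1, hba, β, hβ⟩ := exists_eig hA hS ha (hout _ ha ha1)
  have hab : a ≠ b := hba.symm
  obtain ⟨hγ1, hγodd, haγ, hγinv⟩ := hγ
  obtain ⟨hβ1, hβodd, hbβ, hβinv⟩ := hβ
  have hc : a * b ∈ A := A.mul_mem ha hb
  have hc1 : a * b ≠ 1 := by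
    intro e
    apply hab
    have := klein_mul_self hA hb
    calc a = a * (b * b) := by rw [this, mul_one]
      _ = (a * b) * b := by group
      _ = b := by rw [e, one_mul]
  have hca : a * b ≠ a := fun e => hb1 (mul_eq_left.mp e)
  have hcb : a * b ≠ b := fun e => ha1 (mul_eq_right.mp e)
  have hbγ := hγinv b hb hb1 hba
  have hcγ := hγinv (a * b) hc hc1 hca
  have haβ := hβinv a ha ha1 hab
  have hcβ := hβinv (a * b) hc hc1 hcb
  -- the square root of `γ`
  obtain ⟨g, hg2, k, hgk⟩ := exists_sqrt hγodd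
  have hag : a * g = g * a := by
    rw [hgk]
    have : Commute a γ := haγ
    exact (this.zpow_right k).eq
  have hbg : b * g * b⁻¹ = g⁻¹ := by rw [hgk]; exact inv_zpow_conj hbγ k
  have hcg : (a * b) * g * (a * b)⁻¹ = g⁻¹ := by rw [hgk]; exact inv_zpow_conj hcγ k
  have hg2' : g * g = γ := by rw [← pow_two]; exact hg2
  -- apply Sidki to a conjugate of `A`
  have hS' := IsSidkiPair.conj hS g⁻¹
  have haB : a ∈ A.map (MulAut.conj g⁻¹).toMonoidHom := by
    refine ⟨a, ha, ?_⟩
    simp only [MulEquiv.coe_toMonoidHom, MulAut.conj_apply, inv_inv]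
    calc g⁻¹ * a * g = g⁻¹ * (a * g) := by group
      _ = g⁻¹ * (g * a) := by rw [hag]
      _ = a := by group
  obtain ⟨w, ⟨w₀, hw₀, rfl⟩, hw1, hwc⟩ := hS' β a haB hβodd haβ
  simp only [MulEquiv.coe_toMonoidHom, MulAut.conj_apply, inv_inv] at hw1 hwc
  have hw₀1 : w₀ ≠ 1 := by
    rintro rfl
    apply hw1; group
  have hcomm : γ * β = β * γ := by
    rcases klein_elems hA ha hb hw₀ ha1 hb1 hab with h1 | h1 | h1 | h1
    · exact absurd h1 hw₀1
    · -- `w₀ = a`
      exfalso
      subst h1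
      have h3 : g⁻¹ * w₀ * g = w₀ := by
        calc g⁻¹ * w₀ * g = g⁻¹ * (w₀ * g) := by group
          _ = g⁻¹ * (g * w₀) := by rw [hag]
          _ = w₀ := by group
      rw [h3] at hwc
      exact hβ1 (eq_one_of_comm_inv hβodd haβ hwc)
    · -- `w₀ = b`
      subst h1
      have hbb := klein_mul_self hA hb
      have hbinv : w₀⁻¹ = w₀ := by rw [inv_eq_iff_mul_eq_one]; exact hbb
      have h3 : g⁻¹ * w₀ * g = w₀ * γ := by
        have h4 : w₀ * g * w₀ = g⁻¹ := by rw [← hbg, hbinv]
        calc g⁻¹ * w₀ * g = (w₀ * g * w₀) * w₀ * g := by rw [h4]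
          _ = w₀ * g * (w₀ * w₀) * g := by group
          _ = w₀ * (g * g) := by rw [hbb]; group
          _ = w₀ * γ := by rw [hg2']
      rw [h3] at hwc
      -- `b γ β = β b γ`, `b β = β b`
      have h5 : w₀ * (γ * β) = w₀ * (β * γ) := by
        calc w₀ * (γ * β) = w₀ * γ * β := by group
          _ = β * (w₀ * γ) := hwc
          _ = (β * w₀) * γ := by group
          _ = (w₀ * β) * γ := by rw [hbβ]
          _ = w₀ * (β * γ) := by group
      exact mul_left_cancel h5
    · -- `w₀ = a b`: then `γ` inverts `β`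
      exfalso
      subst h1
      set c := a * b with hcdef
      have hcc := klein_mul_self hA hc
      have hcinv : c⁻¹ = c := by rw [inv_eq_iff_mul_eq_one]; exact hcc
      have h3 : g⁻¹ * c * g = c * γ := by
        have h4 : c * g * c = g⁻¹ := by rw [← hcg, hcinv]
        calc g⁻¹ * c * g = (c * g * c) * c * g := by rw [h4]
          _ = c * g * (c * c) * g := by group
          _ = c * (g * g) := by rw [hcc]; group
          _ = c * γ := by rw [hg2']
      rw [h3] at hwc
      have h6 : γ * β * γ⁻¹ = β⁻¹ := by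
        have h8 : c * γ * β = β * (c * γ) := hwc
        calc γ * β * γ⁻¹ = c⁻¹ * (c * γ * β) * γ⁻¹ := by group
          _ = c⁻¹ * (β * (c * γ)) * γ⁻¹ := by rw [h8]
          _ = c⁻¹ * β * c := by group
          _ = c * β * c⁻¹ := by rw [hcinv]
          _ = β⁻¹ := hcβ
      exact hβ1 (eq_one_of_odd_inverts hγodd hβodd h6)
  -- the product
  have hcomm' : Commute γ β := hcomm
  have hyodd : Odd (orderOf (γ * β)) :=
    Odd.of_dvd_nat (hγodd.mul hβodd) hcomm'.orderOf_mul_dvd_mul_orderOf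
  have hy1 : γ * β ≠ 1 := by
    intro e
    have hβe : β = γ⁻¹ := (inv_eq_of_mul_eq_one_right e).symm
    have h3 : a * β = β * a := by
      rw [hβe]
      exact (Commute.inv_right (show Commute a γ from haγ)).eq
    exact hβ1 (eq_one_of_comm_inv hβodd haβ h3)
  have hyinv : (a * b) * (γ * β) * (a * b)⁻¹ = (γ * β)⁻¹ := by
    calc (a * b) * (γ * β) * (a * b)⁻¹ = ((a * b) * γ * (a * b)⁻¹) * ((a * b) * β * (a * b)⁻¹) := by
          group
      _ = γ⁻¹ * β⁻¹ := by rw [hcγ, hcβ]
      _ = (β * γ)⁻¹ := by group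
      _ = (γ * β)⁻¹ := by rw [hcomm]
  obtain ⟨w, hw, hw1', hwc'⟩ := hS (γ * β) (a * b) hc hyodd hyinv
  rcases klein_elems hA ha hb hw ha1 hb1 hab with h1 | h1 | h1 | h1
  · exact hw1' h1
  · subst h1
    have h3 : w * β = β * w := by
      have h4 : γ * (w * β) = γ * (β * w) := by
        calc γ * (w * β) = (γ * w) * β := by group
          _ = (w * γ) * β := by rw [haγ]
          _ = w * (γ * β) := by group
          _ = (γ * β) * w := hwc'
          _ = γ * (β * w) := by group
      exact mul_left_cancel h4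
    exact hβ1 (eq_one_of_comm_inv hβodd haβ h3)
  · subst h1
    have h3 : w * γ = γ * w := by
      have h4 : (w * γ) * β = (γ * w) * β := by
        calc (w * γ) * β = w * (γ * β) := by group
          _ = (γ * β) * w := hwc'
          _ = γ * (β * w) := by group
          _ = γ * (w * β) := by rw [hbβ]
          _ = (γ * w) * β := by group
      exact mul_right_cancel h4
    exact hγ1 (eq_one_of_comm_inv hγodd hbγ h3)
  · subst h1
    exact hy1 (eq_one_of_comm_inv hyodd hyinv hwc')

end Klein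

end Cfsg.Agent.Lib.Basic.Sidki
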